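import Cfsg.Agent.H49.Hall.Std

set_option autoImplicit false
set_option linter.style.haveILetI false
set_option linter.unusedSectionVars false

/-! Failure of `D_π` in the exceptional cases. -/

universe u

namespace Cfsg.Agent.H49.Hall

open Cfsg.Agent.H64

variable {α : Type u} [Fintype α] [DecidableEq α] {π : Set ℕ}

/-- case A : no fixed point -/
theorem exists_move (h5 : 5 ≤ Fintype.card α) {x y : α} (hxy : x ≠ y) (z : α) :
    ∃ k ∈ stabP (fun w => w = x ∨ w = y), k ∈ alternatingGroup α ∧ k z ≠ z := by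
  -- choose u, v outside {x, y}, u ≠ v with z ∈ {x, y} or z = u
  obtain ⟨u, v, hux, huy, hvx, hvy, huv, hz⟩ : ∃ u v : α, u ≠ x ∧ u ≠ y ∧ v ≠ x ∧ v ≠ y ∧ u ≠ v ∧
      (z = x ∨ z = y ∨ z = u) := by
    have hcard : 1 < ((Finset.univ.erase x).erase y).card := by
      rw [Finset.card_erase_of_mem (by simp [hxy.symm]), Finset.card_erase_of_mem (Finset.mem_univ x),
        Finset.card_univ]
      omega
    by_cases hz : z = x ∨ z = y
    · obtain ⟨u, hu, v, hv, huv⟩ := Finset.one_lt_card.1 hcard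
      simp only [Finset.mem_erase, Finset.mem_univ, and_true] at hu hv
      exact ⟨u, v, hu.2, hu.1, hv.2, hv.1, huv, by tauto⟩
    · push Not at hz
      have hmem : z ∈ (Finset.univ.erase x).erase y := by simp [hz.1, hz.2]
      obtain ⟨v, hv, hvz⟩ := Finset.exists_mem_ne hcard z
      simp only [Finset.mem_erase, Finset.mem_univ, and_true] at hv
      exact ⟨z, v, hz.1, hz.2, hv.2, hv.1, hvz.symm, by tauto⟩
  refine ⟨Equiv.swap x y * Equiv.swap u v, ?_, ?_, ?_⟩
  · apply Subgroup.mul_mem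
    · exact swap_mem_stabP (by simp)
    · exact swap_mem_stabP (by simp [hux, huy, hvx, hvy])
  · rw [Equiv.Perm.mem_alternatingGroup, map_mul, Equiv.Perm.sign_swap hxy, Equiv.Perm.sign_swap huv]
    norm_num
  · rcases hz with rfl | rfl | rfl
    · rw [Equiv.Perm.mul_apply, Equiv.swap_apply_of_ne_of_ne hux.symm hvx.symm, Equiv.swap_apply_left]
      exact hxy.symm
    · rw [Equiv.Perm.mul_apply, Equiv.swap_apply_of_ne_of_ne huy.symm hvy.symm, Equiv.swap_apply_right]
      exact hxy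
    · rw [Equiv.Perm.mul_apply, Equiv.swap_apply_left, Equiv.swap_apply_of_ne_of_ne hvx hvy]
      exact huv.symm

theorem cycleType_rho {a b c d e f : α} (h : [a, b, c, d, e, f].Nodup) :
    (Equiv.swap a b * Equiv.swap c d * Equiv.swap e f).cycleType = {2, 2, 2} := by
  simp only [List.nodup_cons, List.mem_cons, List.not_mem_nil, or_false, not_or, not_false_eq_true,
    List.nodup_nil, and_true] at h
  obtain ⟨⟨ab, ac, ad, ae, af⟩, ⟨bc, bd, be, bf⟩, ⟨cd, ce, cf⟩, ⟨de, df⟩, ef⟩ := h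
  have ct : ∀ x y : α, x ≠ y → (Equiv.swap x y).cycleType = {2} := fun x y hxy =>
    Equiv.Perm.isSwap_iff_cycleType.1 ⟨x, y, hxy, rfl⟩
  have d1 : Equiv.Perm.Disjoint (Equiv.swap a b) (Equiv.swap c d) := by
    rw [Equiv.Perm.disjoint_iff_disjoint_support, Equiv.Perm.support_swap ab, Equiv.Perm.support_swap cd]
    simp [Finset.disjoint_left, ac, ad, bc, bd]
  have d2 : Equiv.Perm.Disjoint (Equiv.swap a b * Equiv.swap c d) (Equiv.swap e f) := by
    apply Equiv.Perm.Disjoint.mul_left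
    · rw [Equiv.Perm.disjoint_iff_disjoint_support, Equiv.Perm.support_swap ab, Equiv.Perm.support_swap ef]
      simp [Finset.disjoint_left, ae, af, be, bf]
    · rw [Equiv.Perm.disjoint_iff_disjoint_support, Equiv.Perm.support_swap cd, Equiv.Perm.support_swap ef]
      simp [Finset.disjoint_left, ce, cf, de, df]
  rw [d2.cycleType_mul, d1.cycleType_mul, ct a b ab, ct c d cd, ct e f ef]
  rfl

def rho7 : Equiv.Perm (Fin 7) := Equiv.swap 0 3 * Equiv.swap 1 4 * Equiv.swap 2 5
def sigma7 : Equiv.Perm (Fin 7) := (Equiv.swap 0 1 * Equiv.swap 1 2) * (Equiv.swap 3 4 * Equiv.swap 4 5)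
def tau7 : Equiv.Perm (Fin 7) := Equiv.swap 0 3 * Equiv.swap 1 4

def rho8 : Equiv.Perm (Fin 8) := Equiv.swap 0 3 * Equiv.swap 1 4 * Equiv.swap 2 5
def sigma8 : Equiv.Perm (Fin 8) := (Equiv.swap 0 1 * Equiv.swap 1 2) * (Equiv.swap 3 4 * Equiv.swap 4 5)
def tau8 : Equiv.Perm (Fin 8) := Equiv.swap 0 3 * Equiv.swap 1 4

theorem card_cent7 : Nat.card (Subgroup.centralizer {rho7}) = 48 := by
  rw [Equiv.Perm.nat_card_centralizer]
  have h : rho7.cycleType = {2, 2, 2} := cycleType_rho (by decide)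
  rw [h, Fintype.card_fin]
  decide

theorem card_cent8 : Nat.card (Subgroup.centralizer {rho8}) = 96 := by
  rw [Equiv.Perm.nat_card_centralizer]
  have h : rho8.cycleType = {2, 2, 2} := cycleType_rho (by decide)
  rw [h, Fintype.card_fin]
  decide

theorem comm7 : sigma7 * rho7 = rho7 * sigma7 ∧ tau7 * rho7 = rho7 * tau7 := by
  constructor <;> decide +kernel

theorem comm8 : sigma8 * rho8 = rho8 * sigma8 ∧ tau8 * rho8 = rho8 * tau8 := by
  constructor <;> decide +kernel

theorem alt7 : sigma7 ∈ alternatingGroup (Fin 7) ∧ tau7 ∈ alternatingGroup (Fin 7) := by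
  constructor
  · rw [Equiv.Perm.mem_alternatingGroup, sigma7, map_mul, map_mul, map_mul, Equiv.Perm.sign_swap (by decide),
      Equiv.Perm.sign_swap (by decide), Equiv.Perm.sign_swap (by decide), Equiv.Perm.sign_swap (by decide)]
    norm_num
  · rw [Equiv.Perm.mem_alternatingGroup, tau7, map_mul, Equiv.Perm.sign_swap (by decide),
      Equiv.Perm.sign_swap (by decide)]
    norm_num

theorem alt8 : sigma8 ∈ alternatingGroup (Fin 8) ∧ tau8 ∈ alternatingGroup (Fin 8) := by
  constructor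
  · rw [Equiv.Perm.mem_alternatingGroup, sigma8, map_mul, map_mul, map_mul, Equiv.Perm.sign_swap (by decide),
      Equiv.Perm.sign_swap (by decide), Equiv.Perm.sign_swap (by decide), Equiv.Perm.sign_swap (by decide)]
    norm_num
  · rw [Equiv.Perm.mem_alternatingGroup, tau8, map_mul, Equiv.Perm.sign_swap (by decide),
      Equiv.Perm.sign_swap (by decide)]
    norm_num

theorem no_inv7 : ∀ A : Finset (Fin 7), A.card = 4 → (∀ x, sigma7 x ∈ A ↔ x ∈ A) → (∀ x, tau7 x ∈ A ↔ x ∈ A) →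
    False := by
  decide +kernel

theorem no_inv8 : ∀ A : Finset (Fin 8), A.card = 4 →
    ((∀ x, sigma8 x ∈ A ↔ x ∈ A) ∨ (∀ x, sigma8 x ∈ A ↔ x ∉ A)) →
    ((∀ x, tau8 x ∈ A ↔ x ∈ A) ∨ (∀ x, tau8 x ∈ A ↔ x ∉ A)) → False := by
  decide +kernel

end Cfsg.Agent.H49.Hall
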