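import Cfsg.Agent.H49.Hall.Intrans
import Cfsg.Agent.S3878

set_option autoImplicit false
set_option linter.style.haveILetI false
set_option linter.unusedSectionVars false

/-! General facts on Hall subgroups; the standard Hall subgroups of symmetric groups. -/

universe u v

namespace Cfsg.Agent.H49.Hall

open Cfsg.Agent.H64 Cfsg.Agent.S3878

section General

variable {G : Type*} [Group G] [Finite G] {π : Set ℕ}

/-- a Hall subgroup contained in a `π`-subgroup is equal to it. -/
theorem hall_eq_of_le {M T : Subgroup G} (hM : IsPiHall π M) (hT : IsPiSubgroup π T) (hle : M ≤ T) : M = T := by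
  apply le_antisymm hle
  rw [← Subgroup.relIndex_eq_one]
  by_contra hne
  obtain ⟨p, hp, hpd⟩ := Nat.exists_prime_and_dvd hne
  have h1 : p ∣ Nat.card T := hpd.trans (Subgroup.relIndex_dvd_card _ _)
  exact hM.2 p hp (hT p hp h1) (hpd.trans (Subgroup.relIndex_dvd_index_of_le hle))

theorem maximal_of_hall {M : Subgroup G} (hM : IsPiHall π M) : Maximal (IsPiSubgroup π) M :=
  ⟨hM.1, fun _ hT hle => (hall_eq_of_le hM hT hle).ge⟩

theorem cpi_of_dpi (h : IsDPiGroup π G) : IsCPiGroup π G :=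
  ⟨epi_of_dpi h, fun H K hH hK => h H K (maximal_of_hall hH) (maximal_of_hall hK)⟩

theorem dpi_few (h : ∀ p q : ℕ, p.Prime → q.Prime → p ∈ π → q ∈ π → p ∣ Nat.card G → q ∣ Nat.card G → p = q) :
    IsDPiGroup π G := by
  have h1 : IsDPiGroup (π ∩ {p | p ∣ Nat.card G}) G ∨ ∃ p q : ℕ, p.Prime ∧ q.Prime ∧ False := by
    left
    by_cases hex : ∃ p : ℕ, p.Prime ∧ p ∈ π ∧ p ∣ Nat.card G
    · apply dpi_of
      left
      intro p q hp hq hpp hqq
      exact h p q hp hq hpp.1 hqq.1 hpp.2 hqq.2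
    · apply dpi_of
      left
      intro p q hp _ hpp _
      exact absurd ⟨p, hp, hpp.1, hpp.2⟩ hex
  rcases h1 with h1 | ⟨_, _, _, _, h⟩
  · have heq : (IsPiSubgroup (π ∩ {p | p ∣ Nat.card G}) : Subgroup G → Prop) = IsPiSubgroup π := by
      funext K
      apply propext
      constructor
      · intro hK p hp hd
        exact (hK p hp hd).1
      · intro hK p hp hd
        exact ⟨hK p hp hd, hd.trans (Subgroup.card_subgroup_dvd_card K)⟩
    intro H K hH hK
    rw [← heq] at hH hK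
    exact h1 H K hH hK
  · exact h.elim

theorem isPiSubgroup_of_all (h : ∀ p : ℕ, p.Prime → p ∣ Nat.card G → p ∈ π) (H : Subgroup G) : IsPiSubgroup π H :=
  fun p hp hd => h p hp (hd.trans (Subgroup.card_subgroup_dvd_card H))

theorem hall_top_of_all (h : ∀ p : ℕ, p.Prime → p ∣ Nat.card G → p ∈ π) : IsPiHall π (⊤ : Subgroup G) := by
  refine ⟨isPiSubgroup_of_all h ⊤, fun p hp _ hd => ?_⟩
  rw [Subgroup.index_top] at hd
  exact hp.one_lt.ne' (Nat.dvd_one.1 hd)

theorem eq_top_of_all (h : ∀ p : ℕ, p.Prime → p ∣ Nat.card G → p ∈ π) {H : Subgroup G}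
    (hH : Maximal (IsPiSubgroup π) H) : H = ⊤ :=
  top_le_iff.1 (hH.le_of_ge (isPiSubgroup_of_all h ⊤) le_top)

theorem dpi_all (h : ∀ p : ℕ, p.Prime → p ∣ Nat.card G → p ∈ π) : IsDPiGroup π G := by
  intro H K hH hK
  refine ⟨1, ?_⟩
  rw [eq_top_of_all h hH, eq_top_of_all h hK, map_conj_one]

end General

variable {α : Type u} [Fintype α] [DecidableEq α] {M : Subgroup (Equiv.Perm α)} {π : Set ℕ}

theorem relIndex_alt_dvd (M : Subgroup (Equiv.Perm α)) : M.relIndex (alternatingGroup α) ∣ M.index := by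
  have h1 := relIndex_sup_of_norm M (alternatingGroup α) (by
    intro h _ n hn
    rw [Equiv.Perm.mem_alternatingGroup] at hn ⊢
    rw [map_mul, map_mul, hn, Equiv.Perm.sign_inv, mul_one]
    exact Int.units_mul_self _)
  rw [← h1]
  exact Subgroup.relIndex_dvd_index_of_le le_sup_left

theorem AH_of_hall (h : IsPiHall π M) : AH π M :=
  ⟨h.1, fun p hp hpπ hd => h.2 p hp hpπ (hd.trans (relIndex_alt_dvd M))⟩

theorem AH_of_hall_alt {M : Subgroup (alternatingGroup α)} (h : IsPiHall π M) :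
    AH π (M.map (alternatingGroup α).subtype) := by
  have hinj : Function.Injective (alternatingGroup α).subtype := Subtype.val_injective
  refine ⟨fun p hp hd => ?_, fun p hp hpπ hd => ?_⟩
  · rw [Subgroup.card_map_of_injective hinj] at hd
    exact h.1 p hp hd
  · have h1 : (M.map (alternatingGroup α).subtype).subgroupOf (alternatingGroup α) = M :=
      Subgroup.comap_map_eq_self_of_injective hinj M
    rw [Subgroup.relIndex, h1] at hd
    exact h.2 p hp hpπ hd

theorem exists_perm_map {P Q : α → Prop} (h : Nat.card {x // P x} = Nat.card {x // Q x}) :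
    ∃ g : Equiv.Perm α, ∀ x, Q (g x) ↔ P x := by
  classical
  rw [Nat.card_eq_fintype_card, Nat.card_eq_fintype_card] at h
  let e : {x // P x} ≃ {x // Q x} := Fintype.equivOfCardEq h
  refine ⟨e.extendSubtype, fun x => ⟨fun h1 => ?_, fun h1 => e.extendSubtype_mem x h1⟩⟩
  by_contra h2
  exact e.extendSubtype_not_mem x h2 h1

/-- the stabilizer of a partition into two parts -/
def swapP (P : α → Prop) : Subgroup (Equiv.Perm α) where
  carrier := {g | (∀ x, P (g x) ↔ P x) ∨ (∀ x, P (g x) ↔ ¬ P x)}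
  mul_mem' := by
    intro g h hg hh
    rcases hg with hg | hg <;> rcases hh with hh | hh
    · left; intro x; rw [Equiv.Perm.mul_apply, hg, hh]
    · right; intro x; rw [Equiv.Perm.mul_apply, hg, hh]
    · right; intro x; rw [Equiv.Perm.mul_apply, hg, hh]
    · left; intro x; rw [Equiv.Perm.mul_apply, hg, hh, not_not]
  one_mem' := Or.inl (fun x => Iff.rfl)
  inv_mem' := by
    intro g hg
    rcases hg with hg | hg
    · left; intro x
      have := hg (g⁻¹ x)
      rw [← this]; simp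
    · right; intro x
      have := hg (g⁻¹ x)
      have h1 : g (g⁻¹ x) = x := by simp
      rw [h1] at this
      tauto

theorem mem_swapP {P : α → Prop} {g : Equiv.Perm α} :
    g ∈ swapP P ↔ (∀ x, P (g x) ↔ P x) ∨ (∀ x, P (g x) ↔ ¬ P x) := Iff.rfl

theorem stabP_le_swapP (P : α → Prop) : stabP P ≤ swapP P := fun _ hg => Or.inl hg

theorem swap_mem_stabP {P : α → Prop} {x y : α} (h : P x ↔ P y) : Equiv.swap x y ∈ stabP P := by
  rw [mem_stabP]
  intro z
  by_cases h1 : z = x
  · subst h1; rw [Equiv.swap_apply_left]; exact h.symm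
  · by_cases h2 : z = y
    · subst h2; rw [Equiv.swap_apply_right]; exact h
    · rw [Equiv.swap_apply_of_ne_of_ne h1 h2]

theorem stabP_conj {P Q : α → Prop} {g : Equiv.Perm α} (hg : ∀ x, Q (g x) ↔ P x) :
    stabP Q = (stabP P).map (MulAut.conj g).toMonoidHom := by
  ext h
  rw [mem_map_conj, mem_stabP, mem_stabP]
  constructor
  · intro hh x
    rw [← hg]
    have : g ((g⁻¹ * h * g) x) = h (g x) := by simp
    rw [this, hh, hg]
  · intro hh x
    have h1 := hh (g⁻¹ x)
    rw [← hg, ← hg] at h1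
    simpa using h1

theorem swapP_conj {P Q : α → Prop} {g : Equiv.Perm α} (hg : ∀ x, Q (g x) ↔ P x) :
    swapP Q = (swapP P).map (MulAut.conj g).toMonoidHom := by
  ext h
  rw [mem_map_conj, mem_swapP, mem_swapP]
  have e1 : ∀ x, g ((g⁻¹ * h * g) x) = h (g x) := fun x => by simp
  constructor
  · rintro (hh | hh)
    · left; intro x
      rw [← hg, e1, hh, hg]
    · right; intro x
      rw [← hg, e1, hh, hg]
  · rintro (hh | hh)
    · left; intro x
      have h1 := hh (g⁻¹ x)
      rw [← hg, ← hg] at h1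
      simpa using h1
    · right; intro x
      have h1 := hh (g⁻¹ x)
      rw [← hg, ← hg] at h1
      simpa using h1

theorem card_stabP' (P : α → Prop) :
    Nat.card (stabP P) = (Nat.card {x // P x}).factorial * (Nat.card {x // ¬ P x}).factorial := by
  classical
  rw [card_stabP, Nat.card_eq_fintype_card, Nat.card_eq_fintype_card]

theorem index_stabP' (P : α → Prop) :
    (stabP P).index = (Nat.card {x // P x} + Nat.card {x // ¬ P x}).choose (Nat.card {x // ¬ P x}) := by
  classical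
  rw [index_stabP, Nat.card_eq_fintype_card, Nat.card_eq_fintype_card]

theorem card_add_card_compl' (P : α → Prop) :
    Nat.card {x // P x} + Nat.card {x // ¬ P x} = Fintype.card α := by
  classical
  rw [Nat.card_eq_fintype_card, Nat.card_eq_fintype_card, card_add_card_compl]

theorem relIndex_swapP {P : α → Prop} (h : Nat.card {x // P x} = Nat.card {x // ¬ P x})
    (hne : ∃ x, P x) : (stabP P).relIndex (swapP P) = 2 := by
  obtain ⟨w, hw⟩ : ∃ g : Equiv.Perm α, ∀ x, ¬ P (g x) ↔ P x := exists_perm_map (P := P) (Q := fun x => ¬ P x) h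
  have hw' : ∀ x, P (w x) ↔ ¬ P x := fun x => by have := hw x; tauto
  obtain ⟨x0, hx0⟩ := hne
  rw [Subgroup.relIndex_eq_two_iff]
  refine ⟨w, Or.inr hw', ?_⟩
  rintro b (hb | hb)
  · right
    refine ⟨hb, ?_⟩
    intro hbw
    have h1 := hbw x0
    rw [Equiv.Perm.mul_apply, hb, hw'] at h1
    tauto
  · left
    constructor
    · intro x
      rw [Equiv.Perm.mul_apply, hb, hw', not_not]
    · intro hbb
      have h1 := hbb x0
      rw [hb x0] at h1
      tauto

/-- the standard Hall subgroups -/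
def IsStd (π : Set ℕ) (T : Subgroup (Equiv.Perm α)) : Prop :=
  ((Fintype.card α).Prime ∧ (∀ r : ℕ, r.Prime → r ≤ Fintype.card α → (r ∈ π ↔ r < Fintype.card α)) ∧
      ∃ x : α, T = stabP (fun y => y = x)) ∨
  (Fintype.card α = 7 ∧ (∀ r : ℕ, r.Prime → r ≤ Fintype.card α → (r ∈ π ↔ (r = 2 ∨ r = 3))) ∧
      ∃ A : Finset α, A.card = 4 ∧ T = stabP (fun x => x ∈ A)) ∨
  (Fintype.card α = 8 ∧ (∀ r : ℕ, r.Prime → r ≤ Fintype.card α → (r ∈ π ↔ (r = 2 ∨ r = 3))) ∧
      ∃ A : Finset α, A.card = 4 ∧ T = swapP (fun x => x ∈ A))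

theorem exists_std_of_concl (h : Concl π M) : ∃ T, IsStd π T ∧ M ≤ T := by
  rcases h with ⟨h1, h2, x, hx⟩ | ⟨h1, h2, A, hA, h3⟩ | ⟨h1, h2, A, hA, h3⟩
  · refine ⟨stabP (fun y => y = x), Or.inl ⟨h1, h2, x, rfl⟩, ?_⟩
    intro g hg y
    constructor
    · intro hy
      apply g.injective
      rw [hx g hg]; exact hy
    · intro hy
      show g y = x
      rw [show y = x from hy]; exact hx g hg
  · exact ⟨stabP (fun x => x ∈ A), Or.inr (Or.inl ⟨h1, h2, A, hA, rfl⟩), fun g hg => h3 g hg⟩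
  · exact ⟨swapP (fun x => x ∈ A), Or.inr (Or.inr ⟨h1, h2, A, hA, rfl⟩), fun g hg => h3 g hg⟩

theorem card_compl_finset {A : Finset α} {n k : ℕ} (hn : Fintype.card α = n) (hA : A.card = k) :
    Nat.card {x // x ∈ A} = k ∧ Nat.card {x // ¬ x ∈ A} = n - k := by
  have h1 : Nat.card {x // x ∈ A} = k := by rw [Nat.card_eq_fintype_card, Fintype.card_coe, hA]
  refine ⟨h1, ?_⟩
  have h2 := card_add_card_compl' (fun x => x ∈ A)
  omega

theorem IsStd.hall {T : Subgroup (Equiv.Perm α)} (h : IsStd π T) : IsPiHall π T := by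
  rcases h with ⟨h1, h2, x, rfl⟩ | ⟨h1, h2, A, hA, rfl⟩ | ⟨h1, h2, A, hA, rfl⟩
  · have e1 : Nat.card {y // y = x} = 1 := by
      rw [Nat.card_eq_fintype_card, Fintype.card_eq_one_iff]
      exact ⟨⟨x, rfl⟩, fun y => Subtype.ext y.2⟩
    have e2 : Nat.card {y // ¬ y = x} = Fintype.card α - 1 := by
      have := card_add_card_compl' (fun y => y = x)
      omega
    have hpos := h1.pos
    refine ⟨fun p hp hd => ?_, fun p hp hpπ hd => ?_⟩
    · rw [card_stabP', e1, e2, Nat.factorial_one, one_mul] at hd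
      have h3 := (Nat.Prime.dvd_factorial hp).1 hd
      exact (h2 p hp (by omega)).2 (by omega)
    · rw [index_stabP', e1, e2] at hd
      have e3 : 1 + (Fintype.card α - 1) = (Fintype.card α - 1) + 1 := by omega
      rw [e3, Nat.choose_succ_self_right] at hd
      have e4 : Fintype.card α - 1 + 1 = Fintype.card α := by omega
      rw [e4] at hd
      have h3 := (Nat.prime_dvd_prime_iff_eq hp h1).1 hd
      have h4 := (h2 p hp h3.le).1 hpπ
      omega
  · obtain ⟨e1, e2⟩ := card_compl_finset h1 hA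
    refine ⟨fun p hp hd => ?_, fun p hp hpπ hd => ?_⟩
    · rw [card_stabP', e1, e2] at hd
      have h3 : p ≤ 4 := by
        rcases (Nat.Prime.dvd_mul hp).1 hd with h4 | h4
        · exact (Nat.Prime.dvd_factorial hp).1 h4
        · have := (Nat.Prime.dvd_factorial hp).1 h4
          omega
      have h4 := hp.two_le
      have h5 : p ≠ 4 := by rintro rfl; exact absurd hp (by norm_num)
      exact (h2 p hp (by omega)).2 (by omega)
    · rw [index_stabP', e1, e2] at hd
      have e3 : (4 + (7 - 4)).choose (7 - 4) = 5 * 7 := by decide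
      rw [e3] at hd
      have h3 : p = 5 ∨ p = 7 := by
        rcases (Nat.Prime.dvd_mul hp).1 hd with h4 | h4
        · exact Or.inl ((Nat.prime_dvd_prime_iff_eq hp (by norm_num)).1 h4)
        · exact Or.inr ((Nat.prime_dvd_prime_iff_eq hp (by norm_num)).1 h4)
      have h4 := (h2 p hp (by omega)).1 hpπ
      omega
  · obtain ⟨e1, e2⟩ := card_compl_finset h1 hA
    have hrel := relIndex_swapP (P := fun x => x ∈ A) (by rw [e1, e2]) (by
      obtain ⟨x, hx⟩ := Finset.card_pos.1 (by omega : 0 < A.card)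
      exact ⟨x, hx⟩)
    have hc := card_mul_relIndex_of_le (stabP_le_swapP (fun x => x ∈ A))
    have hi := Subgroup.relIndex_mul_index (stabP_le_swapP (fun x => x ∈ A))
    rw [hrel, card_stabP', e1, e2] at hc
    rw [hrel, index_stabP', e1, e2] at hi
    have e3 : (4 + (8 - 4)).choose (8 - 4) = 2 * (5 * 7) := by decide
    rw [e3] at hi
    have hi' : (swapP (fun x => x ∈ A)).index = 5 * 7 := by omega
    refine ⟨fun p hp hd => ?_, fun p hp hpπ hd => ?_⟩
    · rw [← hc] at hd
      have h3 : p ≤ 4 := by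
        rcases (Nat.Prime.dvd_mul hp).1 hd with h4 | h4
        · rcases (Nat.Prime.dvd_mul hp).1 h4 with h5 | h5
          · exact (Nat.Prime.dvd_factorial hp).1 h5
          · exact (Nat.Prime.dvd_factorial hp).1 h5
        · have := Nat.le_of_dvd (by norm_num) h4
          omega
      have h4 := hp.two_le
      have h5 : p ≠ 4 := by rintro rfl; exact absurd hp (by norm_num)
      exact (h2 p hp (by omega)).2 (by omega)
    · rw [hi'] at hd
      have h3 : p = 5 ∨ p = 7 := by
        rcases (Nat.Prime.dvd_mul hp).1 hd with h4 | h4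
        · exact Or.inl ((Nat.prime_dvd_prime_iff_eq hp (by norm_num)).1 h4)
        · exact Or.inr ((Nat.prime_dvd_prime_iff_eq hp (by norm_num)).1 h4)
      have h4 := (h2 p hp (by omega)).1 hpπ
      omega

theorem IsStd.exists_odd {T : Subgroup (Equiv.Perm α)} (h : IsStd π T) (h5 : 5 ≤ Fintype.card α) :
    ∃ t ∈ T, Equiv.Perm.sign t = -1 := by
  have key : ∀ P : α → Prop, (∃ x y, x ≠ y ∧ (P x ↔ P y)) → ∃ t ∈ stabP P, Equiv.Perm.sign t = -1 := by
    rintro P ⟨x, y, hxy, hP⟩
    exact ⟨Equiv.swap x y, swap_mem_stabP hP, Equiv.Perm.sign_swap hxy⟩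
  have key2 : ∀ A : Finset α, A.card = 4 → ∃ x y, x ≠ y ∧ (x ∈ A ↔ y ∈ A) := by
    intro A hA
    obtain ⟨x, hx, y, hy, hxy⟩ := Finset.one_lt_card.1 (by omega : 1 < A.card)
    exact ⟨x, y, hxy, by simp [hx, hy]⟩
  rcases h with ⟨h1, h2, x, rfl⟩ | ⟨h1, h2, A, hA, rfl⟩ | ⟨h1, h2, A, hA, rfl⟩
  · apply key
    obtain ⟨y, hy, z, hz, hyz⟩ := Finset.one_lt_card.1 (by
      rw [Finset.card_erase_of_mem (Finset.mem_univ x), Finset.card_univ]; omega :
      1 < (Finset.univ.erase x).card)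
    rw [Finset.mem_erase] at hy hz
    exact ⟨y, z, hyz, by simp [hy.1, hz.1]⟩
  · exact key _ (key2 A hA)
  · obtain ⟨t, ht, hs⟩ := key _ (key2 A hA)
    exact ⟨t, stabP_le_swapP _ ht, hs⟩

theorem IsStd.conj {T T' : Subgroup (Equiv.Perm α)} (h : IsStd π T) (h' : IsStd π T') :
    ∃ g : Equiv.Perm α, T' = T.map (MulAut.conj g).toMonoidHom := by
  have key : ∀ A B : Finset α, A.card = B.card → ∃ g : Equiv.Perm α, ∀ x, g x ∈ B ↔ x ∈ A := by
    intro A B hAB
    apply exists_perm_map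
    rw [Nat.card_eq_fintype_card, Nat.card_eq_fintype_card, Fintype.card_coe, Fintype.card_coe, hAB]
  rcases h with ⟨h1, h2, x, rfl⟩ | ⟨h1, h2, A, hA, rfl⟩ | ⟨h1, h2, A, hA, rfl⟩
  · rcases h' with ⟨_, _, x', rfl⟩ | ⟨h1', h2', A', hA', rfl⟩ | ⟨h1', h2', A', hA', rfl⟩
    · refine ⟨Equiv.swap x x', stabP_conj ?_⟩
      intro y
      constructor
      · intro hy
        have := congrArg (Equiv.swap x x') hy
        rwa [Equiv.swap_apply_self, Equiv.swap_apply_right] at this
      · intro hy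
        rw [hy, Equiv.swap_apply_left]
    · exfalso
      have h5 : (5 : ℕ).Prime := by norm_num
      have := (h2' 5 h5 (by omega)).1 ((h2 5 h5 (by omega)).2 (by omega))
      omega
    · exfalso
      rw [h1'] at h1
      exact absurd h1 (by norm_num)
  · rcases h' with ⟨h1', h2', x', rfl⟩ | ⟨h1', h2', A', hA', rfl⟩ | ⟨h1', h2', A', hA', rfl⟩
    · exfalso
      have h5 : (5 : ℕ).Prime := by norm_num
      have := (h2 5 h5 (by omega)).1 ((h2' 5 h5 (by omega)).2 (by omega))
      omega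
    · obtain ⟨g, hg⟩ := key A A' (by omega)
      exact ⟨g, stabP_conj hg⟩
    · omega
  · rcases h' with ⟨h1', h2', x', rfl⟩ | ⟨h1', h2', A', hA', rfl⟩ | ⟨h1', h2', A', hA', rfl⟩
    · exfalso
      rw [h1] at h1'
      exact absurd h1' (by norm_num)
    · omega
    · obtain ⟨g, hg⟩ := key A A' (by omega)
      exact ⟨g, swapP_conj hg⟩

/-- The case distinction for a set of primes. -/
theorem trichotomy (π : Set ℕ) (n : ℕ) :
    (∀ p : ℕ, p.Prime → p ≤ n → p ∈ π) ∨
    (∀ p q : ℕ, p.Prime → q.Prime → p ∈ π → q ∈ π → p ≤ n → q ≤ n → p = q) ∨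
    ∃ r s t : ℕ, r.Prime ∧ s.Prime ∧ t.Prime ∧ r ≠ s ∧ r ∈ π ∧ s ∈ π ∧ t ∉ π ∧ r ≤ n ∧ s ≤ n ∧ t ≤ n := by
  by_cases h1 : ∀ p : ℕ, p.Prime → p ≤ n → p ∈ π
  · exact Or.inl h1
  by_cases h2 : ∀ p q : ℕ, p.Prime → q.Prime → p ∈ π → q ∈ π → p ≤ n → q ≤ n → p = q
  · exact Or.inr (Or.inl h2)
  right; right
  push Not at h1 h2
  obtain ⟨t, ht, htn, htπ⟩ := h1
  obtain ⟨r, s, hr, hs, hrπ, hsπ, hrn, hsn, hrs⟩ := h2
  exact ⟨r, s, t, hr, hs, ht, hrs, hrπ, hsπ, htπ, hrn, hsn, htn⟩

theorem prime_le_of_dvd_perm {p : ℕ} (hp : p.Prime) (h : p ∣ Nat.card (Equiv.Perm α)) : p ≤ Fintype.card α := by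
  rw [Nat.card_perm, Nat.card_eq_fintype_card] at h
  exact (Nat.Prime.dvd_factorial hp).1 h

theorem prime_le_of_dvd_alt {p : ℕ} (hp : p.Prime) (h : p ∣ Nat.card (alternatingGroup α)) :
    p ≤ Fintype.card α :=
  prime_le_of_dvd_perm hp (h.trans (Subgroup.card_subgroup_dvd_card _))

end Cfsg.Agent.H49.Hall
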